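import Cfsg.Agent.H482.TwoCyc.Num

/-!
# Bounds for the element orders of the exceptional groups over small fields (helper482)

* `F4_two` : `F₄(2)`: at most 448; `F4_three` : `F₄(3)`: at most 1404; `F4_eight` : `F₄(8)`;
* `E6_two`, `TE6_two` : `E₆(2)`, `²E₆(2)`: at most 1680;
* `G2_le` : `G₂(q)`: at most `max ((q + 1) ^ 2) (max (q + 1) 6 * p ^ J)`, `J = 3` if `p = 2`, `J = 2` if `p ≠ 2`.
-/

set_option autoImplicit false
set_option linter.unusedSectionVars false

namespace Cfsg.Agent.H482.TwoCyc.Small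

open Cfsg Cfsg.Lie Cfsg.Lie.ChevalleyDatum Polynomial
open Cfsg.Agent.H482.TwoCyc.Untw Cfsg.Agent.H482.TwoCyc.Num

universe u

theorem prime_of_card {p e q : ℕ} (hp : p.Prime) (_he : 0 < e) (h : q = p ^ e) {r : ℕ} (hr : r.Prime) (hrq : r ∣ q) :
    r = p := (Nat.prime_dvd_prime_iff_eq hr hp).1 (hr.dvd_of_dvd_pow (h ▸ hrq))

/-- the numerical part: the bounds for the Levi subgroups -/
theorem levi_le {q : ℕ} (hq : 2 ≤ q) {l N C : ℕ} (hl : l ≤ 7) (b : ℕ → ℕ)
    (hb : ∀ d c : ℕ, 1 ≤ d → d ≤ l → c ^ 2 ≤ N ^ d → (d = 1 → c = 1) → c ≤ b d)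
    (h : ∀ d, 1 ≤ d → d ≤ l → b d * knap (tab q) (l - d) ≤ C) (S : Finset ℕ) (d c : ℕ) (hS : ∀ n ∈ S, 0 < n)
    (hd : 1 ≤ d) (_hc : 0 < c) (hcN : c ^ 2 ≤ N ^ d) (hd1 : d = 1 → c = 1)
    (hSd : ∑ n ∈ S, Nat.totient n + d ≤ l) : c * (∏ n ∈ S, cyclotomic n ℤ).eval (q : ℤ) ≤ C := by
  have h1 := cyc_le q hq (b := l - d) (by omega) le_rfl S hS (by omega)
  have h2 := hb d c hd (by omega) hcN hd1
  have h3 := h d hd (by omega)
  have h4 : (0 : ℤ) < (∏ n ∈ S, cyclotomic n ℤ).eval (q : ℤ) := Poly.eval_pos q hq S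
  calc (c : ℤ) * (∏ n ∈ S, cyclotomic n ℤ).eval (q : ℤ) ≤ (b d : ℤ) * (knap (tab q) (l - d) : ℤ) :=
        mul_le_mul (by exact_mod_cast h2) h1 h4.le (by positivity)
    _ ≤ C := by exact_mod_cast h3

theorem sq_le {c n m : ℕ} (h : c ^ 2 ≤ n) (hm : n < (m + 1) ^ 2) : c ≤ m := by
  by_contra hcon
  have h1 : (m + 1) ^ 2 ≤ c ^ 2 := Nat.pow_le_pow_left (by omega) 2
  omega

theorem F4_b (d c : ℕ) (h1 : 1 ≤ d) (h4 : d ≤ 4) (hc : c ^ 2 ≤ 4 ^ d) (hd : d = 1 → c = 1) :
    c ≤ (fun d => if d = 1 then 1 else 2 ^ d) d := by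
  interval_cases d
  · exact (hd rfl).le
  all_goals exact sq_le hc (by norm_num)

theorem E6_b (d c : ℕ) (h1 : 1 ≤ d) (h4 : d ≤ 6) (hc : c ^ 2 ≤ 2 ^ d) (_hd : d = 1 → c = 1) :
    c ≤ (fun d => ([0, 1, 2, 2, 4, 5, 8] : List ℕ).getD d 0) d := by
  interval_cases d
  · exact sq_le hc (by decide)
  · exact sq_le hc (by decide)
  · exact sq_le hc (by decide)
  · exact sq_le hc (by decide)
  · exact sq_le hc (by decide)
  · exact sq_le hc (by decide)

section

variable {F : Type u} [Field F] [Finite F]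

theorem F4_two (hF : Nat.card F = 2) (x : ↥(chevF4.group F)) : orderOf x ≤ 448 := by
  have h := ords_F4 x
  rw [hF] at h
  obtain ⟨p, e, hp, he, hpe, h1⟩ := h.le_max (B := 35) (C := 28)
    (fun S hS h => cyc_le 2 le_rfl (b := 4) (by norm_num) (by rw [knap_two.2.2.1]) S hS h)
    (levi_le le_rfl (by norm_num) _ F4_b (by decide +kernel))
  obtain rfl := prime_of_card hp he hpe Nat.prime_two (dvd_refl 2)
  rw [if_pos rfl] at h1
  omega

theorem F4_three (hF : Nat.card F = 3) (x : ↥(chevF4.group F)) : orderOf x ≤ 1404 := by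
  have h := ords_F4 x
  rw [hF] at h
  obtain ⟨p, e, hp, he, hpe, h1⟩ := h.le_max (B := 130) (C := 52)
    (fun S hS h => cyc_le 3 (by norm_num) (b := 4) (by norm_num) (by rw [knap_three.1]) S hS h)
    (levi_le (by norm_num) (by norm_num) _ F4_b (by decide +kernel))
  obtain rfl := prime_of_card hp he hpe Nat.prime_three (dvd_refl 3)
  rw [if_neg (by norm_num)] at h1
  omega

/-- used for `²F₄(8)` -/
theorem F4_eight (hF : Nat.card F = 8) (x : ↥(chevF4.group F)) : orderOf x ≤ 10512 := by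
  have h := ords_F4 x
  rw [hF] at h
  obtain ⟨p, e, hp, he, hpe, h1⟩ := h.le_max (B := 6561) (C := 657)
    (fun S hS h => cyc_le 8 (by norm_num) (b := 4) (by norm_num) (by decide +kernel) S hS h)
    (levi_le (by norm_num) (by norm_num) _ F4_b (by decide +kernel))
  obtain rfl := prime_of_card hp he hpe Nat.prime_two (by norm_num)
  rw [if_pos rfl] at h1
  omega

theorem E6_two (hF : Nat.card F = 2) (x : ↥(chevE6.group F)) : orderOf x ≤ 1680 := by
  have h := ords_E6 x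
  rw [hF] at h
  obtain ⟨p, e, hp, he, hpe, h1⟩ := h.le_max (B := 217) (C := 105)
    (fun S hS h => cyc_le 2 le_rfl (b := 6) (by norm_num) (by rw [knap_two.1]) S hS h)
    (levi_le le_rfl (by norm_num) _ E6_b (by decide +kernel))
  obtain rfl := prime_of_card hp he hpe Nat.prime_two (dvd_refl 2)
  rw [if_pos rfl] at h1
  omega

end

theorem TE6_two {K : Type u} [Field K] [Fintype K] (hK : Fintype.card K = 2 ^ 2) (x : ↥(twistedE6 K 2)) :
    orderOf x ≤ 1680 := by
  have h := ords_2E6 (q := 2) Nat.prime_two.isPrimePow hK x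
  obtain ⟨p, e, hp, he, hpe, h1⟩ := h.le_max (B := 217) (C := 105)
    (fun S hS h => cyc_le 2 le_rfl (b := 6) (by norm_num) (by rw [knap_two.1]) S hS h)
    (levi_le le_rfl (by norm_num) _ E6_b (by decide +kernel))
  obtain rfl := prime_of_card hp he hpe Nat.prime_two (dvd_refl 2)
  rw [if_pos rfl] at h1
  omega

/-- **`G₂(q)`** -/
theorem G2_le {F : Type u} [Field F] [Finite F] (x : ↥(chevG2.group F)) : ∃ p e : ℕ, p.Prime ∧ 0 < e ∧
    Nat.card F = p ^ e ∧ (orderOf x ≤ (Nat.card F + 1) ^ 2 ∨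
      orderOf x ≤ max (Nat.card F + 1) 6 * p ^ (if p = 2 then 3 else 2)) := by
  have hq : 2 ≤ Nat.card F := Finite.one_lt_card
  refine (ords_G2 x).le_max (B := (Nat.card F + 1) ^ 2) (C := max (Nat.card F + 1) 6) ?_ ?_
  · intro S _ hS
    have h1 := Poly.eval_le (Nat.card F) hq S
    push_cast
    refine h1.trans (pow_le_pow_right₀ (by omega) hS)
  · intro S d c _ hd _ hcN hd1 hSd
    have h1 := Poly.eval_le (Nat.card F) hq S
    have h0 := Poly.eval_pos (Nat.card F) hq S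
    rcases Nat.lt_or_ge d 2 with h2 | h2
    · have hd' : d = 1 := by omega
      rw [hd1 hd', Nat.cast_one, one_mul]
      refine (h1.trans (pow_le_pow_right₀ (by omega) (show _ ≤ 1 by omega))).trans ?_
      rw [pow_one]
      exact_mod_cast le_max_left _ _
    · have hd' : d = 2 := by omega
      subst hd'
      have h3 : c ≤ 6 := sq_le hcN (by norm_num)
      have h4 : ∑ n ∈ S, Nat.totient n = 0 := by omega
      rw [h4, pow_zero] at h1
      have h5 : (∏ n ∈ S, cyclotomic n ℤ).eval ((Nat.card F : ℕ) : ℤ) = 1 := by omega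
      rw [h5, mul_one]
      exact_mod_cast h3.trans (le_max_right _ _)

end Cfsg.Agent.H482.TwoCyc.Small
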